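import Cfsg.Agent.H407.L16.Beta
import Cfsg.Agent.H413.L16.Nel

/-!
# S5916, claim G (α): the root elements of the orbit of `148` fix the vectors without `β`-part (helper407)

* `Sp LBr` : the span of 56 root vectors, stable under `Fp` and `t₀`;
* `fix_Sp` : the root elements `x_r(λ)`, `r` in the orbit of `148`, fix `Sp LBr`;
* `alpha` : the vectors `vR k 0 0 r1 r2 r3 r0`, `vN K1 K2 0 0 0` and their images.
-/

set_option autoImplicit false
set_option maxRecDepth 100000

namespace Cfsg.Agent.H407.L16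

open Cfsg Cfsg.Lie
open Cfsg.Agent.H939.L64 (KK LK brK aK)
open Cfsg.Agent.H413.L16 (er hv hr tg xr aK_xr br_rr nr er_ge er_inr brM)
open Cfsg.Agent.H939.L16
open Cfsg.Agent.H955.L16

variable {Fp : LK → LK} {ta : LK →ₗ[KK] LK}

/-- the 56 roots -/
def LBr : List ℕ := [8, 22, 24, 31, 38, 40, 41, 42, 45, 54, 57, 61, 62, 63, 64, 73, 75, 86, 95, 97, 101, 103, 105, 106, 107,
  108, 109, 116, 128, 137, 139, 143, 145, 147, 148, 149, 150, 151, 157, 170, 172, 179, 186, 188, 189, 190, 193, 202, 205,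
  209, 210, 211, 212, 221, 223, 234]

/-- the span of the root vectors of a list -/
noncomputable def Sp (L : List ℕ) : Submodule KK LK := Submodule.span KK {v | ∃ s ∈ L, v = er s}

theorem er_mem_Sp {L : List ℕ} {s : ℕ} (h : s ∈ L) : er s ∈ Sp L := Submodule.subset_span ⟨s, h, rfl⟩

theorem ev_mem_Sp {L : List ℕ} (ν : Fin 4 → KK) : ∀ u : LV, (u.all fun x => decide (x.1 ∈ L)) = true → ev ν u ∈ Sp L := by
  intro u
  induction u with
  | nil => intro _; exact (Sp L).zero_mem
  | cons x u ih =>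
    intro h
    rw [List.all_cons, Bool.and_eq_true, decide_eq_true_eq] at h
    rw [ev_cons]
    exact (Sp L).add_mem ((Sp L).smul_mem _ (er_mem_Sp h.1)) (ih h.2)

theorem xl_add (r : Fin chevE8.nroots) (c : KK) (v w : LK) : xl r c (v + w) = xl r c v + xl r c w := by
  unfold xl
  rw [← brM_apply, ← brM_apply, ← brM_apply, map_add, Pi.add_apply, smul_add, mul_add, add_smul]
  abel

theorem xl_smul (r : Fin chevE8.nroots) (c a : KK) (v : LK) : xl r c (a • v) = a • xl r c v := by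
  unfold xl
  rw [← brM_apply, ← brM_apply, map_smul, Pi.smul_apply, smul_eq_mul, smul_add, smul_add, smul_comm c a, smul_smul a (c ^ 2 * _),
    mul_left_comm]

theorem T_add (u v : LK) : T ta (u + v) = T ta u + T ta v := by
  unfold T iz
  rw [map_add, xl_add, xl_add, xl_add, xl_add]

theorem T_smul (a : KK) (v : LK) : T ta (a • v) = a • T ta v := by
  unfold T iz
  rw [map_smul, xl_smul, xl_smul, xl_smul, xl_smul]

theorem er_ev (s : ℕ) : ev (fun _ => (1 : KK)) [(s, (0, 0, 0, 0))] = er s := by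
  simp [ev, mon]

/-- the check : `LBr` is stable under `w` and `t₀`, and nothing is added by the roots of the orbit of `148` -/
theorem chk_F : (LBr.all fun s => decide (s < 240) && decide (wi s ∈ LBr)) = true := by decide +kernel

theorem chk_T : (LBr.all fun s => okT [(s, (0, 0, 0, 0))] &&
    (Tl [(s, (0, 0, 0, 0))]).all fun x => decide (x.1 ∈ LBr)) = true := by decide +kernel

def O148 : List ℕ := [148, 150, 189, 212, 109, 107, 64, 41]

theorem chk_O : (O148.all fun r => decide (r < 240) && decide (wi r ∈ O148) &&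
    LBr.all fun s => decide (tg r s = 240) && decide (s ≠ 239 - r)) = true := by decide +kernel

theorem Sp_F (O : Ops Fp ta) : ∀ v ∈ Sp LBr, Fp v ∈ Sp LBr := by
  intro v hv
  induction hv using Submodule.span_induction with
  | mem v h =>
    obtain ⟨s, hs, rfl⟩ := h
    have h1 := List.all_eq_true.1 chk_F s hs
    simp only [Bool.and_eq_true, decide_eq_true_eq] at h1
    rw [O.er _ h1.1]
    exact er_mem_Sp h1.2
  | zero =>
    have h := O.smul 0 0
    rw [zero_smul] at h
    rw [h, zero_pow (by norm_num), zero_smul]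
    exact (Sp LBr).zero_mem
  | add u v _ _ h1 h2 => rw [O.add]; exact (Sp LBr).add_mem h1 h2
  | smul c v _ h1 => rw [O.smul]; exact (Sp LBr).smul_mem _ h1

theorem Sp_Fi (O : Ops Fp ta) (j : ℕ) {v : LK} (hv : v ∈ Sp LBr) : Fp^[j] v ∈ Sp LBr := by
  induction j with
  | zero => exact hv
  | succ j ih => rw [Function.iterate_succ_apply']; exact Sp_F O _ ih

theorem Sp_T (O : Ops Fp ta) : ∀ v ∈ Sp LBr, T ta v ∈ Sp LBr := by
  intro v hv
  induction hv using Submodule.span_induction with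
  | mem v h =>
    obtain ⟨s, hs, rfl⟩ := h
    have h1 := List.all_eq_true.1 chk_T s hs
    rw [Bool.and_eq_true] at h1
    rw [← er_ev s, ev_T O _ h1.1]
    exact ev_mem_Sp _ _ h1.2
  | zero =>
    have h := T_smul (ta := ta) 0 0
    rw [zero_smul, zero_smul] at h
    rw [h]
    exact (Sp LBr).zero_mem
  | add u v _ _ h1 h2 => rw [T_add]; exact (Sp LBr).add_mem h1 h2
  | smul c v _ h1 => rw [T_smul]; exact (Sp LBr).smul_mem _ h1

theorem fix_Sp' {r : ℕ} (hr : r ∈ O148) (lam : KK) {v : LK} (hv : v ∈ Sp LBr) : aK (xr r lam) v = v := by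
  have h1 := List.all_eq_true.1 chk_O r hr
  rw [Bool.and_eq_true, Bool.and_eq_true, decide_eq_true_eq, decide_eq_true_eq] at h1
  have h0 : r < 240 := h1.1.1
  have key : brM (er r) v = 0 ∧ v (Sum.inr ⟨239 - r, by rw [nr]; omega⟩) = 0 := by
    induction hv using Submodule.span_induction with
    | mem v h =>
      obtain ⟨s, hs, rfl⟩ := h
      have h2 := List.all_eq_true.1 h1.2 s hs
      rw [Bool.and_eq_true, decide_eq_true_eq, decide_eq_true_eq] at h2
      have h3 := List.all_eq_true.1 chk_F s hs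
      rw [Bool.and_eq_true, decide_eq_true_eq] at h3
      refine ⟨?_, ?_⟩
      · rw [brM_apply, br_rr h0 h3.1 h2.2, h2.1]
        exact er_ge le_rfl
      · rw [er_inr, if_neg h2.2]
    | zero => exact ⟨map_zero _, rfl⟩
    | add u v _ _ h1 h2 =>
      refine ⟨by rw [map_add, h1.1, h2.1, add_zero], ?_⟩
      rw [Pi.add_apply, h1.2, h2.2, add_zero]
    | smul c v _ h1 =>
      refine ⟨by rw [map_smul, h1.1, smul_zero], ?_⟩
      rw [Pi.smul_apply, h1.2, smul_zero]
  rw [aK_xr h0, ← brM_apply, key.1, key.2, smul_zero, mul_zero, zero_smul, add_zero, add_zero]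

theorem wi_iter_O (i : ℕ) : wi^[i] 148 ∈ O148 := by
  induction i with
  | zero => decide
  | succ i ih =>
    rw [Function.iterate_succ_apply']
    have h1 := List.all_eq_true.1 chk_O _ ih
    rw [Bool.and_eq_true, Bool.and_eq_true, decide_eq_true_eq, decide_eq_true_eq] at h1
    exact h1.1.2

/-- the root elements of the orbit of `148` fix `Sp LBr` -/
theorem fix_Sp (i : ℕ) (lam : KK) {v : LK} (hv : v ∈ Sp LBr) : aK (xr (wi^[i] 148) lam) v = v := fix_Sp' (wi_iter_O i) lam hv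

theorem vR_Sp (k r1 r2 r3 r0 : KK) : vR k 0 0 r1 r2 r3 r0 ∈ Sp LBr := by
  unfold vR
  rw [zero_smul, zero_smul, add_zero, add_zero]
  refine (Sp LBr).add_mem ((Sp LBr).add_mem ((Sp LBr).add_mem ((Sp LBr).add_mem ?_ ?_) ?_) ?_) ?_ <;>
    exact (Sp LBr).smul_mem _ (er_mem_Sp (by decide))

theorem vN_Sp (K1 K2 : KK) : vN K1 K2 0 0 0 ∈ Sp LBr := by
  unfold vN
  rw [zero_smul, zero_smul, zero_smul, add_zero, add_zero, add_zero]
  refine (Sp LBr).add_mem ?_ ?_ <;> exact (Sp LBr).smul_mem _ (er_mem_Sp (by decide))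

theorem alpha_mem (O : Ops Fp ta) (j : ℕ) {u v : LK}
    (hu : (∃ k r1 r2 r3 r0, u = vR k 0 0 r1 r2 r3 r0) ∨ ∃ K1 K2, u = vN K1 K2 0 0 0)
    (hv : v = Fp^[j] u ∨ v = T ta (Fp^[j] u)) : v ∈ Sp LBr := by
  have h1 : u ∈ Sp LBr := by
    rcases hu with ⟨k, r1, r2, r3, r0, rfl⟩ | ⟨K1, K2, rfl⟩
    · exact vR_Sp k r1 r2 r3 r0
    · exact vN_Sp K1 K2
  have h2 := Sp_Fi O j h1
  rcases hv with rfl | rfl
  · exact h2
  · exact Sp_T O _ h2

/-- **claim G (α)** -/
theorem alpha (O : Ops Fp ta) (i : ℕ) (lam : KK) (j : ℕ) {u v : LK}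
    (hu : (∃ k r1 r2 r3 r0, u = vR k 0 0 r1 r2 r3 r0) ∨ ∃ K1 K2, u = vN K1 K2 0 0 0)
    (hv : v = Fp^[j] u ∨ v = T ta (Fp^[j] u)) : aK (xr (wi^[i] 148) lam) v = v :=
  fix_Sp i lam (alpha_mem O j hu hv)

end Cfsg.Agent.H407.L16
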