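import Cfsg.Agent.H955.L16.Stmt

/-!
# S5916: calculation with combinations of root vectors, coefficients = monomials in four variables (helper407)

* `ev ν l` : the vector of the list `l` of pairs (root, monomial);
* `ev_br`, `ev_F`, `ev_xl`, `ev_ta`, `ev_T` : bracket, Frobenius map, `x_r(1)`, `τ`, `t₀`;
* `ev_eq` : equality by counting modulo two.
-/

set_option autoImplicit false
set_option maxRecDepth 100000

namespace Cfsg.Agent.H407.L16

open Cfsg Cfsg.Lie
open Cfsg.Agent.H939.L64 (KK LK brK)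
open Cfsg.Agent.H413.L16 (er hv hr tg br_rr br_comm nr tg_le er_ge er_of brM)
open Cfsg.Agent.H413.L64 (charKK)
open Cfsg.Agent.H939.L16

/-- monomials -/
abbrev Mo : Type := ℕ × ℕ × ℕ × ℕ

/-- product of monomials -/
def mul4 (m n : Mo) : Mo := (m.1 + n.1, m.2.1 + n.2.1, m.2.2.1 + n.2.2.1, m.2.2.2 + n.2.2.2)

/-- the value of a monomial -/
noncomputable def mon (ν : Fin 4 → KK) (m : Mo) : KK := ν 0 ^ m.1 * ν 1 ^ m.2.1 * ν 2 ^ m.2.2.1 * ν 3 ^ m.2.2.2

theorem mon_mul (ν : Fin 4 → KK) (m n : Mo) : mon ν (mul4 m n) = mon ν m * mon ν n := by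
  simp only [mon, mul4, pow_add]
  ring

/-- vectors -/
abbrev LV : Type := List (ℕ × Mo)

/-- the vector of a list -/
noncomputable def ev (ν : Fin 4 → KK) (l : LV) : LK := (l.map fun x => mon ν x.2 • er x.1).sum

theorem ev_nil (ν : Fin 4 → KK) : ev ν [] = 0 := rfl

theorem ev_cons (ν : Fin 4 → KK) (x : ℕ × Mo) (l : LV) : ev ν (x :: l) = mon ν x.2 • er x.1 + ev ν l := by
  unfold ev
  rw [List.map_cons, List.sum_cons]

theorem ev_append (ν : Fin 4 → KK) (l l' : LV) : ev ν (l ++ l') = ev ν l + ev ν l' := by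
  unfold ev
  rw [List.map_append, List.sum_append]

theorem two_smul_zero (v : LK) : v + v = 0 := by
  have := charKK
  funext i
  show v i + v i = 0
  exact CharTwo.add_self_eq_zero _

theorem even_nsmul {n : ℕ} (h : n % 2 = 0) (v : LK) : n • v = 0 := by
  obtain ⟨k, rfl⟩ := Nat.dvd_of_mod_eq_zero h
  rw [mul_nsmul, two_nsmul, two_smul_zero, nsmul_zero]

/-- all multiplicities are even -/
def evn (l : LV) : Bool := l.all fun x => decide ((l.countP fun y => decide (y = x)) % 2 = 0)

theorem ev_zero (ν : Fin 4 → KK) {l : LV} (h : evn l = true) : ev ν l = 0 := by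
  classical
  unfold ev
  rw [Finset.sum_list_map_count]
  refine Finset.sum_eq_zero fun x hx => ?_
  have h1 := of_decide_eq_true (List.all_eq_true.1 h x (List.mem_toFinset.1 hx))
  have h2 : ∀ (b : BEq (ℕ × Mo)) (_ : LawfulBEq (ℕ × Mo)), @List.count _ b x l = l.countP fun y => decide (y = x) := by
    intro b _
    unfold List.count
    congr 1
    funext y
    by_cases h : y = x
    · rw [h, beq_self_eq_true, decide_eq_true rfl]
    · rw [decide_eq_false h, beq_eq_false_iff_ne.2 h]
  exact Eq.trans (congrArg (fun n : ℕ => n • (mon ν x.2 • er x.1)) (h2 _ inferInstance)) (even_nsmul h1 _)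

theorem ev_eq (ν : Fin 4 → KK) {l l' : LV} (h : evn (l ++ l') = true) :
    ev ν l = ev ν l' := by
  have h1 := ev_zero ν h
  rw [ev_append] at h1
  calc ev ν l = ev ν l + (ev ν l' + ev ν l') := by rw [two_smul_zero, add_zero]
    _ = (ev ν l + ev ν l') + ev ν l' := by rw [add_assoc]
    _ = ev ν l' := by rw [h1, zero_add]

/-- drop the terms which are not roots -/
def cl (u : LV) : LV := u.filter fun x => decide (x.1 < 240)

theorem ev_cl (ν : Fin 4 → KK) (u : LV) : ev ν (cl u) = ev ν u := by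
  induction u with
  | nil => rfl
  | cons x u ih =>
    unfold cl
    by_cases h : x.1 < 240
    · rw [List.filter_cons_of_pos (by simpa using h), ev_cons, ev_cons]
      exact congrArg _ ih
    · rw [List.filter_cons_of_neg (by simpa using h), ev_cons, er_ge (by omega), smul_zero, zero_add]
      exact ih

/-- the bracket of two lists -/
def brl (u v : LV) : LV := u.flatMap fun x => cl (v.map fun y => (tg x.1 y.1, mul4 x.2 y.2))

/-- no opposite roots -/
def okb (u v : LV) : Bool := u.all fun x => v.all fun y => decide (x.1 < 240) && decide (y.1 < 240) && decide (y.1 ≠ 239 - x.1)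

theorem brM_apply (v w : LK) : brM v w = brK v w := rfl

theorem ev_br1 (ν : Fin 4 → KK) (x : ℕ × Mo) : ∀ v : LV,
    (v.all fun y => decide (x.1 < 240) && decide (y.1 < 240) && decide (y.1 ≠ 239 - x.1)) = true →
    brM (mon ν x.2 • er x.1) (ev ν v) = ev ν (v.map fun y => (tg x.1 y.1, mul4 x.2 y.2)) := by
  intro v
  induction v with
  | nil => intro _; rw [ev_nil, map_zero, List.map_nil, ev_nil]
  | cons y v ih =>
    intro h
    rw [List.all_cons, Bool.and_eq_true] at h
    obtain ⟨h1, h2⟩ := h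
    simp only [Bool.and_eq_true, decide_eq_true_eq] at h1
    rw [ev_cons, map_add, ih h2, List.map_cons, ev_cons]
    congr 1
    rw [map_smul, map_smul, LinearMap.smul_apply, brM_apply, br_rr h1.1.1 h1.1.2 h1.2, smul_smul, mon_mul, mul_comm]

theorem ev_br (ν : Fin 4 → KK) : ∀ u v : LV, okb u v = true → brK (ev ν u) (ev ν v) = ev ν (brl u v) := by
  intro u v
  rw [← brM_apply]
  induction u with
  | nil => intro _; rw [ev_nil, map_zero, LinearMap.zero_apply]; rfl
  | cons x u ih =>
    intro h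
    unfold okb at h
    rw [List.all_cons, Bool.and_eq_true] at h
    rw [ev_cons, map_add, LinearMap.add_apply, ih h.2, ev_br1 ν x v h.1]
    show _ = ev ν (_ ++ _)
    rw [ev_append, ev_cl]
    rfl

/-- all roots are in range -/
def okr (u : LV) : Bool := u.all fun x => decide (x.1 < 240)

/-- the Frobenius map -/
def Fl (u : LV) : LV := u.map fun x => (wi x.1, mul4 x.2 x.2)

theorem ev_F {Fp : LK → LK} {ta : LK →ₗ[KK] LK} (O : Ops Fp ta) (ν : Fin 4 → KK) : ∀ u : LV, okr u = true →
    Fp (ev ν u) = ev ν (Fl u) := by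
  intro u
  induction u with
  | nil =>
    intro _
    show Fp 0 = 0
    have h := O.smul 0 0
    rw [zero_smul] at h
    rw [h, zero_pow (by norm_num), zero_smul]
  | cons x u ih =>
    intro h
    unfold okr at h
    rw [List.all_cons, Bool.and_eq_true, decide_eq_true_eq] at h
    rw [ev_cons, O.add, ih h.2, O.smul, O.er _ h.1]
    show _ = ev ν ((wi x.1, mul4 x.2 x.2) :: Fl u)
    rw [ev_cons, mon_mul, pow_two]

/-- `τ` -/
def tal (u : LV) : LV := u.map fun x => (wi (wi (wi (wi x.1))), x.2)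

theorem ev_ta {Fp : LK → LK} {ta : LK →ₗ[KK] LK} (O : Ops Fp ta) (ν : Fin 4 → KK) : ∀ u : LV, okr u = true →
    ta (ev ν u) = ev ν (tal u) := by
  intro u
  induction u with
  | nil => intro _; rw [ev_nil, map_zero]; rfl
  | cons x u ih =>
    intro h
    unfold okr at h
    rw [List.all_cons, Bool.and_eq_true, decide_eq_true_eq] at h
    rw [ev_cons, map_add, ih h.2, map_smul, O.ter _ h.1]
    show _ = ev ν ((wi (wi (wi (wi x.1))), x.2) :: tal u)
    rw [ev_cons]

/-- `x_r(1)` -/
def xll (r : ℕ) (u : LV) : LV := u ++ cl (u.map fun x => (tg r x.1, x.2))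

/-- no root opposite to `r` -/
def okx (r : ℕ) (u : LV) : Bool := u.all fun x => decide (x.1 < 240) && decide (x.1 ≠ 239 - r)

theorem ev_coord (ν : Fin 4 → KK) {s : ℕ} (hs : s < chevE8.nroots) : ∀ u : LV, (u.all fun x => decide (x.1 ≠ s)) = true →
    ev ν u (Sum.inr ⟨s, hs⟩) = 0 := by
  intro u
  induction u with
  | nil => intro _; rfl
  | cons x u ih =>
    intro h
    rw [List.all_cons, Bool.and_eq_true, decide_eq_true_eq] at h
    rw [ev_cons]
    show mon ν x.2 * er x.1 (Sum.inr ⟨s, hs⟩) + ev ν u (Sum.inr ⟨s, hs⟩) = 0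
    rw [ih h.2, add_zero]
    have : er x.1 (Sum.inr ⟨s, hs⟩) = 0 := by
      unfold er
      split_ifs with h6
      · rw [Pi.single_eq_of_ne]
        intro h7
        exact h.1 (congrArg Fin.val (Sum.inr.inj h7)).symm
      · rfl
    rw [this, mul_zero]

theorem ev_xl (ν : Fin 4 → KK) (r : Fin chevE8.nroots) (u : LV) (h : okx r u = true) :
    xl r 1 (ev ν u) = ev ν (xll r u) := by
  have hr : (r : ℕ) < 240 := lt_of_lt_of_eq r.2 nr
  have h1 : ∀ x ∈ u, x.1 < 240 ∧ x.1 ≠ 239 - r := by
    intro x hx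
    have := List.all_eq_true.1 h x hx
    simpa only [Bool.and_eq_true, decide_eq_true_eq] using this
  have h2 : ev ν u (Sum.inr (Fin.rev r)) = 0 := by
    have h3 : (Fin.rev r : ℕ) = 239 - r := by
      have h4 := Fin.val_rev r
      have h5 := nr
      omega
    apply ev_coord ν (Fin.rev r).2 u
    apply List.all_eq_true.2
    intro x hx
    exact decide_eq_true (by rw [h3]; exact (h1 x hx).2)
  unfold xl xll
  rw [h2, mul_zero, zero_smul, add_zero, one_smul, ev_append, ev_cl]
  congr 1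
  clear h h2
  induction u with
  | nil => rw [ev_nil, ← brM_apply, map_zero]; rfl
  | cons x u ih =>
    have h5 := h1 x (List.mem_cons_self ..)
    rw [← brM_apply, ev_cons, map_add, brM_apply, brM_apply, ih fun y hy => h1 y (List.mem_cons_of_mem _ hy),
      List.map_cons, ev_cons]
    congr 1
    rw [← brM_apply, map_smul, brM_apply, br_rr hr h5.1 h5.2]

/-- `t₀` -/
def Tl (u : LV) : LV := xll 121 (xll 126 (xll 141 (xll 135 (tal u))))

def okT (u : LV) : Bool := okr u && okx 135 (tal u) && okx 141 (xll 135 (tal u)) && okx 126 (xll 141 (xll 135 (tal u))) &&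
  okx 121 (xll 126 (xll 141 (xll 135 (tal u))))

theorem ev_T {Fp : LK → LK} {ta : LK →ₗ[KK] LK} (O : Ops Fp ta) (ν : Fin 4 → KK) {u : LV} (h : okT u = true) :
    Cfsg.Agent.H955.L16.T ta (ev ν u) = ev ν (Tl u) := by
  unfold okT at h
  simp only [Bool.and_eq_true] at h
  obtain ⟨⟨⟨⟨h0, h1⟩, h2⟩, h3⟩, h4⟩ := h
  unfold Cfsg.Agent.H955.L16.T iz
  rw [ev_ta O ν u h0, ev_xl ν _ _ h1, ev_xl ν _ _ h2, ev_xl ν _ _ h3, ev_xl ν _ _ h4]
  rfl

theorem T_eq {Fp : LK → LK} {ta : LK →ₗ[KK] LK} (O : Ops Fp ta) (ν : Fin 4 → KK) {u v : LV} (h : okT u = true)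
    (h2 : evn (Tl u ++ v) = true) : Cfsg.Agent.H955.L16.T ta (ev ν u) = ev ν v := (ev_T O ν h).trans (ev_eq ν h2)

theorem F_eq {Fp : LK → LK} {ta : LK →ₗ[KK] LK} (O : Ops Fp ta) (ν : Fin 4 → KK) {u v : LV} (h : okr u = true)
    (h2 : evn (Fl u ++ v) = true) : Fp (ev ν u) = ev ν v := (ev_F O ν u h).trans (ev_eq ν h2)

theorem br_eq (ν : Fin 4 → KK) {u v w : LV} (h : okb u v = true) (h2 : evn (brl u v ++ w) = true) :
    brK (ev ν u) (ev ν v) = ev ν w := (ev_br ν u v h).trans (ev_eq ν h2)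


end Cfsg.Agent.H407.L16
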