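import Cfsg.Agent.H407.L16.Ret

/-!
# S5916: the parabolic subalgebra `Pf` (helper407)

`Pf_br`, `good_Pf`, `lieS_le_Pf`, `Pf_ne_top'`.
-/

set_option autoImplicit false
set_option maxRecDepth 100000

namespace Cfsg.Agent.H407.L16

open Cfsg Cfsg.Lie
open Cfsg.Agent.H939.L64 (KK LK brK aK)
open Cfsg.Agent.H413.L16 (er hv hr tg row er_inr er_ge nr brM br_rr br_neg br_hv br_er_hv br_hh tg_le er_of)
open Cfsg.Agent.H939.L16
open Cfsg.Agent.H955.L16

variable {Fp : LK → LK} {ta : LK →ₗ[KK] LK}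

/-- the values of `fv` -/
def FVt : List ℤ := [0, -1, 1, -1, 1, -2, 0, 0, 2, -1, 1, -1, 1, 0, -1, 1, -2, 0, -2, 0, -1, 0, 2, 0, 2, 1, -1, -3,
  -1, -2, -1, 1, 0, -1, -2, 0, 1, -1, 1, 0, 1, 3, 2, 1, 0, 2, -2, 0, -1, -2, -3, -1, 0, -1, 1, -1, 0, 2, 1, 0, -1, 1, 2,
  1, 3, 1, -1, -2, 0, -2, 0, 1, 0, 2, 0, 2, -1, 1, -1, 1, 0, -1, -2, 0, 1, 0, 2, 0, -2, -3, -1, -3, -1, 0, -1, 1, -1, 1,
  -2, 0, -1, 1, -1, 1, -2, 2, 1, 3, 1, 3, -1, -2, 0, -2, 1, 0, 2, -1, -2, 1, -1, 2, 1, -2, 0, -1, 2, 0, 2, 1, -3, -1,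
  -3, -1, -2, 2, -1, 1, -1, 1, 0, 2, -1, 1, -1, 1, 0, 1, 3, 1, 3, 2, 0, -2, 0, -1, 0, 2, 1, 0, -1, 1, -1, 1, -2, 0, -2,
  0, -1, 0, 2, 0, 2, 1, -1, -3, -1, -2, -1, 1, 0, -1, -2, 0, 1, -1, 1, 0, 1, 3, 2, 1, 0, 2, -2, 0, -1, -2, -3, -1, 0,
  -1, 1, -1, 0, 2, 1, 0, -1, 1, 2, 1, 3, 1, -1, -2, 0, -2, 0, 1, 0, 2, 0, 2, -1, 1, 0, -1, 1, -1, 1, -2, 0, 0, 2, -1, 1,
  -1, 1, 0]

/-- the roots of the good vectors -/
def GB : List ℕ := [2, 6, 7, 8, 10, 12, 15, 21, 22, 24, 25, 31, 32, 38, 39, 40, 41, 42, 44, 45, 47, 52, 54, 56, 57,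
  58, 61, 62, 63, 64, 68, 71, 73, 75, 83, 85, 86, 95, 97, 101, 103, 105, 106, 107, 108, 109, 114, 116, 128, 129, 137,
  139, 143, 145, 147, 148, 149, 150, 151, 154, 156, 157, 167, 170, 172, 173, 179, 180, 183, 186, 188, 189, 190, 191,
  192, 193, 200, 202, 204, 205, 207, 209, 210, 211, 212, 219, 221, 222, 223, 225, 228, 230, 232, 233, 234, 238]

theorem fv_tab : ((List.range 240).all fun s => decide (fv s = FVt.getD s 0)) = true := by decide +kernel

/-- `fv s ≥ 0` -/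
def np (s : ℕ) : Bool := decide (0 ≤ FVt.getD s 0)

theorem np_iff {s : ℕ} (hs : s < 240) : np s = true ↔ 0 ≤ fv s := by
  have h := of_decide_eq_true (List.all_eq_true.1 fv_tab s (List.mem_range.2 hs))
  rw [h, np, decide_eq_true_eq]

theorem chk_row : ((List.range 240).all fun r => !(np r) || (row r).all fun e => !(np e.1) || np (e.2.getD 0 (240, 0)).1) = true := by
  decide +kernel

theorem np_tg {r s : ℕ} (hr : r < 240) (h1 : np r = true) (h2 : np s = true) (h : tg r s < 240) : np (tg r s) = true := by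
  have h3 := List.all_eq_true.1 chk_row r (List.mem_range.2 hr)
  rw [h1, Bool.not_true, Bool.false_or] at h3
  unfold tg at h ⊢
  cases hf : (row r).find? (fun e => e.1 == s) with
  | none => rw [hf] at h; exact absurd h (lt_irrefl _)
  | some e =>
    have he := List.mem_of_find?_eq_some hf
    have hes : e.1 = s := by simpa using List.find?_some hf
    have h4 := List.all_eq_true.1 h3 e he
    rw [hes, h2, Bool.not_true, Bool.false_or] at h4
    exact h4

/-- the generators of `Pf` -/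
def PG : Set LK := {v | ∃ s < 240, np s = true ∧ v = er s} ∪ {v | ∃ c, v = hv c}

theorem er_Pf {s : ℕ} (h : s < 240) (h1 : np s = true) : er s ∈ Pf := by
  intro a ha
  rw [er_inr, if_neg]
  rintro rfl
  exact absurd ((np_iff h).1 h1) (not_le.2 ha)

theorem hv_Pf (c : Fin chevE8.rank → KK) : hv c ∈ Pf := fun _ _ => rfl

theorem PG_le : Submodule.span KK PG ≤ Pf := by
  refine Submodule.span_le.2 ?_
  rintro v (⟨s, hs, h1, rfl⟩ | ⟨c, rfl⟩)
  · exact er_Pf hs h1
  · exact hv_Pf c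

theorem expand (v : LK) : v = hv (fun i => v (Sum.inl i)) + ∑ s : Fin chevE8.nroots, v (Sum.inr s) • er (s : ℕ) := by
  funext a
  rw [Pi.add_apply, Finset.sum_apply]
  rcases a with a | a
  · rw [Finset.sum_eq_zero, add_zero]
    · rfl
    · intro s _
      rw [Pi.smul_apply, er_of s.2, Pi.single_eq_of_ne (by simp), smul_zero]
  · rw [Finset.sum_eq_single a]
    · rw [Pi.smul_apply, er_inr, if_pos rfl, smul_eq_mul, mul_one]
      exact (zero_add _).symm
    · intro b _ hb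
      rw [Pi.smul_apply, er_inr, if_neg (fun h => hb (Fin.ext h)), smul_zero]
    · intro h; exact absurd (Finset.mem_univ _) h

theorem le_PG : Pf ≤ Submodule.span KK PG := by
  intro v hv
  rw [expand v]
  refine Submodule.add_mem _ (Submodule.subset_span (Or.inr ⟨_, rfl⟩)) (Submodule.sum_mem _ fun s _ => ?_)
  have hs : (s : ℕ) < 240 := lt_of_lt_of_eq s.2 nr
  by_cases h : np s = true
  · exact Submodule.smul_mem _ _ (Submodule.subset_span (Or.inl ⟨s, hs, h, rfl⟩))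
  · rw [np_iff hs, not_le] at h
    rw [hv s h, zero_smul]
    exact Submodule.zero_mem _

/-- `Pf` is a subalgebra -/
theorem Pf_br : ∀ u ∈ Pf, ∀ v ∈ Pf, brK u v ∈ Pf := by
  have key : ∀ x ∈ PG, ∀ y ∈ PG, brM x y ∈ Pf := by
    rintro x (⟨s, hs, h1, rfl⟩ | ⟨c, rfl⟩) y (⟨t, ht, h2, rfl⟩ | ⟨d, rfl⟩)
    · rw [brM_apply]
      by_cases h : t = 239 - s
      · subst h
        rw [br_neg hs]
        exact hv_Pf _
      · rw [br_rr hs ht h]
        rcases lt_or_ge (tg s t) 240 with h3 | h3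
        · exact er_Pf h3 (np_tg hs h1 h2 h3)
        · rw [er_ge h3]; exact Pf.zero_mem
    · rw [brM_apply, br_er_hv _ hs]
      exact Pf.smul_mem _ (er_Pf hs h1)
    · rw [brM_apply, br_hv _ ht]
      exact Pf.smul_mem _ (er_Pf ht h2)
    · rw [brM_apply, br_hh]
      exact Pf.zero_mem
  intro u hu v hv
  rw [← brM_apply]
  exact LinearMap.BilinMap.apply_apply_mem_of_mem_span Pf PG PG brM key u v (le_PG hu) (le_PG hv)

theorem chk_GB : (GB.all fun s => decide (s < 240) && decide (wi s ∈ GB) && np s) = true := by decide +kernel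

theorem chk_GT : (GB.all fun s => okT [(s, (0, 0, 0, 0))] &&
    (Tl [(s, (0, 0, 0, 0))]).all fun x => decide (x.1 < 240) && np x.1) = true := by decide +kernel

theorem ev_Pf (ν : Fin 4 → KK) : ∀ u : LV, (u.all fun x => decide (x.1 < 240) && np x.1) = true → ev ν u ∈ Pf := by
  intro u
  induction u with
  | nil => intro _; exact Pf.zero_mem
  | cons x u ih =>
    intro h
    rw [List.all_cons, Bool.and_eq_true, Bool.and_eq_true, decide_eq_true_eq] at h
    rw [ev_cons]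
    exact Pf.add_mem (Pf.smul_mem _ (er_Pf h.1.1 h.1.2)) (ih h.2)

theorem GB_F (O : Ops Fp ta) : ∀ v ∈ Sp GB, Fp v ∈ Sp GB := by
  intro v hv
  induction hv using Submodule.span_induction with
  | mem v h =>
    obtain ⟨s, hs, rfl⟩ := h
    have h1 := List.all_eq_true.1 chk_GB s hs
    simp only [Bool.and_eq_true, decide_eq_true_eq] at h1
    rw [O.er _ h1.1.1]
    exact er_mem_Sp h1.1.2
  | zero =>
    have h := O.smul 0 0
    rw [zero_smul] at h
    rw [h, zero_pow (by norm_num), zero_smul]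
    exact (Sp GB).zero_mem
  | add u v _ _ h1 h2 => rw [O.add]; exact (Sp GB).add_mem h1 h2
  | smul c v _ h1 => rw [O.smul]; exact (Sp GB).smul_mem _ h1

theorem GB_Fi (O : Ops Fp ta) (j : ℕ) {v : LK} (hv : v ∈ Sp GB) : Fp^[j] v ∈ Sp GB := by
  induction j with
  | zero => exact hv
  | succ j ih => rw [Function.iterate_succ_apply']; exact GB_F O _ ih

theorem GB_Pf : Sp GB ≤ Pf := by
  refine Submodule.span_le.2 ?_
  rintro v ⟨s, hs, rfl⟩
  have h1 := List.all_eq_true.1 chk_GB s hs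
  simp only [Bool.and_eq_true, decide_eq_true_eq] at h1
  exact er_Pf h1.1.1 h1.2

theorem GB_T (O : Ops Fp ta) : ∀ v ∈ Sp GB, T ta v ∈ Pf := by
  intro v hv
  induction hv using Submodule.span_induction with
  | mem v h =>
    obtain ⟨s, hs, rfl⟩ := h
    have h1 := List.all_eq_true.1 chk_GT s hs
    rw [Bool.and_eq_true] at h1
    rw [← er_ev s, ev_T O _ h1.1]
    exact ev_Pf _ _ h1.2
  | zero =>
    have h := T_smul (ta := ta) 0 0
    rw [zero_smul, zero_smul] at h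
    rw [h]
    exact Pf.zero_mem
  | add u v _ _ h1 h2 => rw [T_add]; exact Pf.add_mem h1 h2
  | smul c v _ h1 => rw [T_smul]; exact Pf.smul_mem _ h1

/-- good vectors are in `Pf` -/
theorem good_Pf (O : Ops Fp ta) {v : LK} (h : Good Fp ta v) : v ∈ Pf := by
  obtain ⟨j, u, hu, hj⟩ := h
  have h1 : u ∈ Sp GB := by
    rcases hu with ⟨k, r1, r2, r3, r0, rfl⟩ | ⟨K1, K2, A, A2, B, hA, rfl⟩
    · unfold vR
      rw [zero_smul, zero_smul, add_zero, add_zero]
      refine (Sp GB).add_mem ((Sp GB).add_mem ((Sp GB).add_mem ((Sp GB).add_mem ?_ ?_) ?_) ?_) ?_ <;>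
        exact (Sp GB).smul_mem _ (er_mem_Sp (by decide))
    · unfold vN
      refine (Sp GB).add_mem ((Sp GB).add_mem ((Sp GB).add_mem ((Sp GB).add_mem ?_ ?_) ?_) ?_) ?_
      · exact (Sp GB).smul_mem _ (er_mem_Sp (by decide))
      · exact (Sp GB).smul_mem _ (er_mem_Sp (by decide))
      · exact (Sp GB).smul_mem _ ((Sp GB).add_mem (er_mem_Sp (by decide)) (er_mem_Sp (by decide)))
      · exact (Sp GB).smul_mem _ ((Sp GB).add_mem (er_mem_Sp (by decide)) (er_mem_Sp (by decide)))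
      · exact (Sp GB).smul_mem _ ((Sp GB).add_mem (er_mem_Sp (by decide)) (er_mem_Sp (by decide)))
  have h2 := GB_Fi O j h1
  rcases hj with rfl | rfl
  · exact GB_Pf h2
  · exact GB_T O _ h2

theorem lieS_le_Pf (O : Ops Fp ta) {N : Submodule KK LK} (hN : N ≤ Submodule.span KK {v | v ∈ N ∧ Good Fp ta v}) :
    lieS N ≤ Pf := by
  refine sInf_le ⟨hN.trans (Submodule.span_le.2 ?_), Pf_br⟩
  rintro v ⟨-, h⟩
  exact good_Pf O h

theorem Pf_ne_top' : Pf ≠ ⊤ := by
  intro h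
  have h1 : er 118 ∈ Pf := by rw [h]; exact Submodule.mem_top
  have h2 := h1 ⟨118, by rw [nr]; norm_num⟩ (by
    show fv 118 < 0
    decide +kernel)
  rw [er_inr, if_pos rfl] at h2
  exact one_ne_zero h2

end Cfsg.Agent.H407.L16
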