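import Cfsg.Agent.H407.L16.Alpha
import Cfsg.Agent.H939.L16.Def2

/-!
# S5916, claim G: return to weight 3 (helper407)

`ret` : a subspace stable under `Fp` and `t₀` which contains `Fp^j u` or `t₀ Fp^j u`, `u = vN K1 K2 A A2 B`, contains
`vN` of the `2 ^ (8 j)`-th powers.
-/

set_option autoImplicit false
set_option maxRecDepth 100000

namespace Cfsg.Agent.H407.L16

open Cfsg Cfsg.Lie
open Cfsg.Agent.H939.L64 (KK LK brK aK)
open Cfsg.Agent.H413.L16 (er hv hr tg)
open Cfsg.Agent.H939.L16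
open Cfsg.Agent.H955.L16

variable {Fp : LK → LK} {ta : LK →ₗ[KK] LK}

/-- the permutation of the roots -/
def Pl (u : LV) : LV := u.map fun x => (wi x.1, x.2)

theorem mon_sq (ν : Fin 4 → KK) (m : Mo) : mon (fun i => ν i ^ 2) m = mon ν m * mon ν m := by
  simp only [mon]
  ring

theorem ev_Fl (ν : Fin 4 → KK) (u : LV) : ev ν (Fl u) = ev (fun i => ν i ^ 2) (Pl u) := by
  induction u with
  | nil => rfl
  | cons x u ih =>
    show ev ν ((wi x.1, mul4 x.2 x.2) :: Fl u) = ev _ ((wi x.1, x.2) :: Pl u)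
    rw [ev_cons, ev_cons, ih, mon_mul, mon_sq]

theorem okr_Pl {u : LV} (h : okr u = true) : okr (Pl u) = true := by
  induction u with
  | nil => rfl
  | cons x u ih =>
    unfold okr at h ih
    rw [List.all_cons, Bool.and_eq_true, decide_eq_true_eq] at h
    show okr ((wi x.1, x.2) :: Pl u) = true
    unfold okr
    rw [List.all_cons, Bool.and_eq_true, decide_eq_true_eq]
    exact ⟨wi_lt h.1, ih h.2⟩

theorem okr_Pi {u : LV} (h : okr u = true) (n : ℕ) : okr (Pl^[n] u) = true := by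
  induction n with
  | zero => exact h
  | succ n ih => rw [Function.iterate_succ_apply']; exact okr_Pl ih

theorem Fp_ev (O : Ops Fp ta) (ν : Fin 4 → KK) {u : LV} (h : okr u = true) (n : ℕ) :
    Fp^[n] (ev ν u) = ev (fun i => ν i ^ 2 ^ n) (Pl^[n] u) := by
  induction n with
  | zero => simp
  | succ n ih =>
    rw [Function.iterate_succ_apply', ih, ev_F O _ _ (okr_Pi h n), ev_Fl, Function.iterate_succ_apply']
    congr 1
    funext i
    rw [← pow_mul, pow_succ]

theorem wi_eight' {s : ℕ} (hs : s < 240) : wi^[8] s = s := by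
  have h1 : ((List.range 240).all fun s => decide (wi^[8] s = s)) = true := by decide +kernel
  exact of_decide_eq_true (List.all_eq_true.1 h1 s (List.mem_range.2 hs))

theorem Pl_eight {u : LV} (h : okr u = true) : Pl^[8] u = u := by
  induction u with
  | nil => rfl
  | cons x u ih =>
    unfold okr at h ih
    rw [List.all_cons, Bool.and_eq_true, decide_eq_true_eq] at h
    have e : ∀ (n : ℕ) (y : ℕ × Mo) (v : LV), Pl^[n] (y :: v) = (wi^[n] y.1, y.2) :: Pl^[n] v := by
      intro n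
      induction n with
      | zero => intro y v; rfl
      | succ n ih =>
        intro y v
        rw [Function.iterate_succ_apply', ih, Function.iterate_succ_apply', Function.iterate_succ_apply']
        rfl
    rw [e, ih h.2]
    have h8 : wi^[8] x.1 = x.1 := wi_eight' h.1
    rw [h8]

theorem Pl_mod {u : LV} (h : okr u = true) (j : ℕ) : Pl^[j] u = Pl^[j % 8] u := by
  conv_lhs => rw [← Nat.mod_add_div j 8, Function.iterate_add_apply, Function.iterate_mul]
  congr 1
  induction j / 8 with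
  | zero => rfl
  | succ k ih => rw [Function.iterate_succ_apply', ih, Pl_eight h]

/-- the check of `t₀² = 1` on `u` -/
def chkTT (u : LV) : Bool := okT u && okT (Tl u) && evn (Tl (Tl u) ++ u)

theorem TT_ev (O : Ops Fp ta) (ν : Fin 4 → KK) {u : LV} (h : chkTT u = true) : T ta (T ta (ev ν u)) = ev ν u := by
  unfold chkTT at h
  simp only [Bool.and_eq_true] at h
  rw [ev_T O ν h.1.1, ev_T O ν h.1.2]
  exact ev_eq ν h.2

theorem ret_ev (O : Ops Fp ta) {N : Submodule KK LK} (hF : ∀ v ∈ N, Fp v ∈ N) (hT : ∀ v ∈ N, T ta v ∈ N)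
    (ν : Fin 4 → KK) {u : LV} (hu : okr u = true) (hc : ((List.range 8).all fun j => chkTT (Pl^[j] u)) = true) (j : ℕ)
    {v : LK} (hv : v = Fp^[j] (ev ν u) ∨ v = T ta (Fp^[j] (ev ν u))) (h : v ∈ N) :
    ev (fun i => ν i ^ 2 ^ (8 * j)) u ∈ N := by
  have hFi : ∀ n v, v ∈ N → Fp^[n] v ∈ N := by
    intro n v hv
    induction n with
    | zero => exact hv
    | succ n ih => rw [Function.iterate_succ_apply']; exact hF _ ih
  have h1 : Fp^[j] (ev ν u) ∈ N := by
    rcases hv with rfl | rfl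
    · exact h
    · have h2 := hT _ h
      rw [Fp_ev O ν hu, TT_ev O] at h2
      · rw [Fp_ev O ν hu]; exact h2
      · rw [Pl_mod hu]
        exact List.all_eq_true.1 hc _ (List.mem_range.2 (Nat.mod_lt _ (by norm_num)))
  have h3 := hFi (7 * j) _ h1
  rw [← Function.iterate_add_apply, show 7 * j + j = 8 * j by ring, Fp_ev O ν hu, Pl_mod hu, Nat.mul_mod_right] at h3
  exact h3

theorem chk_a : okr waU = true ∧ ((List.range 8).all fun j => chkTT (Pl^[j] waU)) = true := by decide +kernel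

theorem chk_f : okr wfU = true ∧ ((List.range 8).all fun j => chkTT (Pl^[j] wfU)) = true := by decide +kernel

theorem wa_eq (K1 K2 A B : KK) : ev ![K1, K2, A, B] waU = vN K1 K2 A 0 B := by
  simp [ev, waU, mon, vN]
  abel

theorem wf_eq (K1 K2 A2 B : KK) : ev ![K1, K2, A2, B] wfU = vN K1 K2 0 A2 B := by
  simp [ev, wfU, mon, vN]
  abel

theorem pow_vec (a b c d : KK) (n : ℕ) : (fun i => (![a, b, c, d] : Fin 4 → KK) i ^ n) = ![a ^ n, b ^ n, c ^ n, d ^ n] := by
  funext i
  fin_cases i <;> rfl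

/-- **return to weight 3** -/
theorem ret (O : Ops Fp ta) {N : Submodule KK LK} (hF : ∀ v ∈ N, Fp v ∈ N) (hT : ∀ v ∈ N, T ta v ∈ N)
    {K1 K2 A A2 B : KK} (hA : A * A2 = 0) (j : ℕ) {v : LK}
    (hv : v = Fp^[j] (vN K1 K2 A A2 B) ∨ v = T ta (Fp^[j] (vN K1 K2 A A2 B))) (h : v ∈ N) :
    ∃ n : ℕ, n ≠ 0 ∧ vN (K1 ^ n) (K2 ^ n) (A ^ n) (A2 ^ n) (B ^ n) ∈ N := by
  refine ⟨2 ^ (8 * j), by positivity, ?_⟩
  rcases mul_eq_zero.1 hA with rfl | rfl
  · rw [← wf_eq] at hv
    have := ret_ev O hF hT _ chk_f.1 chk_f.2 j hv h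
    rwa [pow_vec, wf_eq, ← zero_pow (M₀ := KK) (n := 2 ^ (8 * j)) (by positivity)] at this
  · rw [← wa_eq] at hv
    have := ret_ev O hF hT _ chk_a.1 chk_a.2 j hv h
    rwa [pow_vec, wa_eq, ← zero_pow (M₀ := KK) (n := 2 ^ (8 * j)) (by positivity)] at this

/-- the Lie algebra generated by a stable subspace is stable -/
theorem clo_lieS (O : Ops Fp ta) (hTb : ∀ u v, T ta (brK u v) = brK (T ta u) (T ta v)) {N : Submodule KK LK}
    (hF : ∀ v ∈ N, Fp v ∈ N) (hT : ∀ v ∈ N, T ta v ∈ N) : Clo Fp ta (lieS N) := by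
  have hbr : ∀ u ∈ lieS N, ∀ v ∈ lieS N, brK u v ∈ lieS N := by
    intro u hu v hv
    unfold lieS at *
    rw [Submodule.mem_sInf] at *
    intro A hA
    exact hA.2 u (hu A hA) v (hv A hA)
  have hle : N ≤ lieS N := le_sInf fun A hA => hA.1
  have hmin : ∀ A : Submodule KK LK, N ≤ A → (∀ u ∈ A, ∀ v ∈ A, brK u v ∈ A) → lieS N ≤ A :=
    fun A h1 h2 => sInf_le ⟨h1, h2⟩
  refine ⟨hbr, ?_, ?_⟩
  · let A : Submodule KK LK :=
      { carrier := {v | Fp v ∈ lieS N}
        add_mem' := by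
          intro a b ha hb
          show Fp (a + b) ∈ lieS N
          rw [O.add]; exact (lieS N).add_mem ha hb
        zero_mem' := by
          show Fp 0 ∈ lieS N
          have h := O.smul 0 0
          rw [zero_smul] at h
          rw [h, zero_pow (by norm_num), zero_smul]
          exact (lieS N).zero_mem
        smul_mem' := by
          intro c v hv
          show Fp (c • v) ∈ lieS N
          rw [O.smul]; exact (lieS N).smul_mem _ hv }
    exact hmin A (fun v hv => hle (hF v hv)) fun u hu v hv => by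
      show Fp (brK u v) ∈ lieS N
      rw [O.br]; exact hbr _ hu _ hv
  · let A : Submodule KK LK :=
      { carrier := {v | T ta v ∈ lieS N}
        add_mem' := by
          intro a b ha hb
          show T ta (a + b) ∈ lieS N
          rw [T_add]; exact (lieS N).add_mem ha hb
        zero_mem' := by
          show T ta 0 ∈ lieS N
          have h := T_smul (ta := ta) 0 0
          rw [zero_smul, zero_smul] at h
          rw [h]
          exact (lieS N).zero_mem
        smul_mem' := by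
          intro c v hv
          show T ta (c • v) ∈ lieS N
          rw [T_smul]; exact (lieS N).smul_mem _ hv }
    exact hmin A (fun v hv => hle (hT v hv)) fun u hu v hv => by
      show T ta (brK u v) ∈ lieS N
      rw [hTb]; exact hbr _ hu _ hv

/-- **the alternative of claim G**: for good vectors -/
theorem claimG (O : Ops Fp ta) (hTb : ∀ u v, T ta (brK u v) = brK (T ta u) (T ta v)) {N : Submodule KK LK}
    (hN : N ≤ Submodule.span KK {v | v ∈ N ∧ Good Fp ta v})
    (hF : ∀ v ∈ N, Fp v ∈ N) (hT : ∀ v ∈ N, T ta v ∈ N) :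
    (∀ (j : ℕ) (lam : KK), ∀ v ∈ N, aK (Cfsg.Agent.H413.L16.xr (wi^[j] 148) lam) v = v) ∨
      ∃ r, (r = 157 ∨ r = 148 ∨ r = 128) ∧ ∀ j, er (wi^[j] r) ∈ lieS N := by
  by_cases hb : ∃ (j : ℕ) (K1 K2 A A2 B : KK) (v : LK), A * A2 = 0 ∧ ¬ (A = 0 ∧ A2 = 0 ∧ B = 0) ∧ v ∈ N ∧
      (v = Fp^[j] (vN K1 K2 A A2 B) ∨ v = T ta (Fp^[j] (vN K1 K2 A A2 B)))
  · right
    obtain ⟨j, K1, K2, A, A2, B, v, hA, hn, hv, hj⟩ := hb
    obtain ⟨n, hn0, hm⟩ := ret O hF hT hA j hj hv
    have hle : N ≤ lieS N := le_sInf fun A hA => hA.1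
    have h1 : A ^ n * A2 ^ n = 0 := by rw [← mul_pow, hA, zero_pow hn0]
    have h2 : ¬ (A ^ n = 0 ∧ A2 ^ n = 0 ∧ B ^ n = 0) := by
      rintro ⟨a, b, c⟩
      exact hn ⟨pow_eq_zero_iff hn0 |>.1 a, pow_eq_zero_iff hn0 |>.1 b, pow_eq_zero_iff hn0 |>.1 c⟩
    rcases beta O (clo_lieS O hTb hF hT) h1 h2 (hle hm) with h | h | h
    · exact ⟨157, Or.inl rfl, h⟩
    · exact ⟨148, Or.inr (Or.inl rfl), h⟩
    · exact ⟨128, Or.inr (Or.inr rfl), h⟩
  · left
    intro j lam v hv
    have h1 : N ≤ Sp LBr := by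
      refine hN.trans (Submodule.span_le.2 ?_)
      rintro w ⟨hw, i, u, hu, hj⟩
      refine alpha_mem O i ?_ hj
      rcases hu with hu | ⟨K1, K2, A, A2, B, hA, rfl⟩
      · exact Or.inl hu
      · right
        by_cases h0 : A = 0 ∧ A2 = 0 ∧ B = 0
        · obtain ⟨rfl, rfl, rfl⟩ := h0
          exact ⟨K1, K2, rfl⟩
        · exact absurd ⟨i, K1, K2, A, A2, B, w, hA, h0, hw, hj⟩ hb
    exact fix_Sp j lam (h1 hv)

end Cfsg.Agent.H407.L16
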